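import Mathlib
import Cfsg.Agent.Suz.ZassV
import Cfsg.Agent.Suz.U3e

set_option autoImplicit false
set_option linter.unusedSectionVars false

/-! Zassenhaus groups whose Frobenius kernel is a 2-group, as rank one set-ups. -/

namespace Cfsg.Agent.Suz

open MulAction RankOne RankOne.Setup Subgroup Cfsg.Agent.Perm

variable {G Ω : Type*} [Group G] [Finite G] [MulAction G Ω] [Finite Ω] {a : Ω} {t : G} {U : Subgroup G}

theorem zker_of_reg (hle : U ≤ stabilizer G a) (hn : ∀ h ∈ stabilizer G a, ∀ u ∈ U, h * u * h⁻¹ ∈ U)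
    (hreg : ∀ c d : Ω, c ≠ a → d ≠ a → ∃! u : U, (u : G) • c = d) : ZKer a U :=
  ZKer.of_reg hle ⟨fun u hu g => hn g g.2 u hu⟩ hreg

theorem even_of_zass (hZ : IsZassenhausGroup G Ω) (hF : ZKer a U) (h2 : IsPGroup 2 U) : Even (Nat.card U) := by
  have h := Z3.of_isZ hZ
  obtain ⟨b, hb⟩ : ∃ b, b ≠ a := by
    obtain ⟨-, -, c, d, hcd, -⟩ := hZ.2.2.2.1
    have : Nontrivial Ω := ⟨c, d, hcd⟩
    exact exists_ne a
  obtain ⟨c, hc, hcb⟩ := h.exists_third hZ.2.2.2.1 hb.symm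
  have : Fact (Nat.Prime 2) := ⟨Nat.prime_two⟩
  obtain ⟨n, hn, e⟩ := h2.nontrivial_iff_card.mp ((nontrivial_iff_ne_bot _).mpr (hF.ne_bot hb hc hcb))
  rw [e]
  exact (Nat.even_pow' hn.ne').mpr even_two

theorem exists_swap_of_zass (hZ : IsZassenhausGroup G Ω) (hF : ZKer a U) (h2 : IsPGroup 2 U) {b : Ω}
    (hb : a ≠ b) : ∃ t : G, t * t = 1 ∧ t • a = b := by
  obtain ⟨s, hs, h1, hs2⟩ := exists_involution_mem (even_of_zass hZ hF h2)
  obtain ⟨g, e1, e2⟩ := (Z3.of_isZ hZ).exists_two (fun e => h1 (hF.free s hs b hb.symm (Eq.symm e))) hb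
  refine ⟨g * s * g⁻¹, by rw [conj_mul, hs2, mul_one, mul_inv_cancel], ?_⟩
  rw [← e2, ← conj_smul_smul, e1]

theorem setup_of_zass (hZ : IsZassenhausGroup G Ω) (hF : ZKer a U) (h2 : IsPGroup 2 U) (ht : t * t = 1)
    (hta : t • a ≠ a) : IsRankOneSetup G Ω a t U ∧ TwoRank G ∧ VV a t = ⊥ := by
  have h := Z3.of_isZ hZ
  have : Nontrivial Ω := ⟨_, _, hta⟩
  have he := even_of_zass hZ hF h2
  have hS : IsRankOneSetup G Ω a t U := by
    refine mk_setup ht hta hF.le' hF.conj (fun x hx => hF.free x hx _ hta) (fun c hc => hF.trans _ _ hta hc) he ?_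
    have h1 := h.card_two_dvd hta.symm
    have h3 : 0 < Nat.card U := Nat.card_pos
    rw [← hF.card] at h1
    exact Odd.of_dvd_nat (by obtain ⟨k, hk⟩ := he; exact ⟨k - 1, by omega⟩) h1
  refine ⟨hS, ?_, eq_bot_iff.mpr fun v hv => ?_⟩
  · obtain ⟨k, hk, ka, kb⟩ := h.exists_fix_two hZ.2.2.2.1 hta.symm
    obtain ⟨s, hs, h1, hs2⟩ := exists_involution_Q hS
    have := hF.nilpotent h hZ.2.2.2.1
    refine ⟨s, k * s * k⁻¹, h1, by rwa [Ne, conj_eq_one_iff], fun e => h1 (hF.eq_one_of_commute h hta hk ka kb hs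
      (mul_inv_eq_iff_eq_mul.mp e.symm)), hs2, by rw [conj_mul, hs2, mul_one, mul_inv_cancel],
      involution_central_of_nilpotent hS this ⟨hS.le hs, h1, hs2⟩ (hF.conj k ka s hs)⟩
  · obtain ⟨⟨h1, h3⟩, h4⟩ := mem_VV.mp hv
    obtain ⟨c, hc⟩ := exists_fix hS ht
    refine h.eq_one hta.symm (c := c) (by rintro rfl; exact hta hc) (fun e => hta ?_) h1 h3
      (fix_unique hS hS.ne_one ht (by rw [← mul_smul, ← h4, mul_smul, hc]) hc)
    rw [← e, ← hc, e, t_t_smul hS]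

/-- The non-abelian case: Suzuki coordinates. -/
theorem szc_of_zass [IsSimpleGroup G] (hZ : IsZassenhausGroup G Ω) (hF : ZKer a U) (h2 : IsPGroup 2 U)
    (ht : t * t = 1) (hta : t • a ≠ a) (hn : ∃ x ∈ U, ∃ y ∈ U, x * y ≠ y * x) :
    ∃ (F : Type) (_ : Field F) (_ : Fintype F) (_ : CharP F 2) (m : ℕ), 1 ≤ m ∧
      Fintype.card F = 2 ^ (2 * m + 1) ∧ Nat.card U = Fintype.card F ^ 2 ∧
      Nat.card (DD a t) = Fintype.card F - 1 ∧ IsCyclic (DD a t) ∧ Nonempty (Hig U F) := by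
  obtain ⟨hS, hT, hV⟩ := setup_of_zass hZ hF h2 ht hta
  have := hZ.1
  obtain ⟨F, _, _, _, ⟨Z⟩⟩ := exists_ZF hS hT
  have hc : Nat.card U = Fintype.card F ^ 2 := ((Z.hig h2).card_cases fun h => by
    obtain ⟨x, hx, y, hy, e⟩ := hn
    exact e (congrArg Subtype.val (h ⟨x, hx⟩ ⟨y, hy⟩).eq)).resolve_right fun h =>
      zass_ne_cube hS hT hV (Z.special h2 hn) (Z.qOf_eq ▸ h.1)
  have hD : Nat.card (DD a t) = Fintype.card F - 1 := by rw [Z.card_D, hV, card_bot, mul_one]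
  have hcyc : IsCyclic (DD a t) := by
    obtain ⟨C, hC, h1, -⟩ := K_cyclic hS hT
    refine (show C = DD a t from le_antisymm (fun x hx => ?_) fun d hd => ?_) ▸ h1
    · exact (show x ∈ Cfsg.invertedBy (DD a t) t from hC ▸ hx).1
    · obtain ⟨l, -, v, hv, rfl⟩ := Z.exists_k_mul_V hd
      rw [mem_bot.mp (hV.le hv), mul_one, ← SetLike.mem_coe, hC]
      exact Z.k_invBy l
  obtain ⟨θ, σ, β, ⟨C⟩⟩ := Z.exists_szc h2 hn hc
  obtain rfl := C.σ_eq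
  obtain ⟨θ, ⟨C⟩⟩ : ∃ θ, Nonempty (SzC a t U F θ 1 1) := by
    rcases C.β_cases with rfl | rfl
    exacts [⟨_, ⟨C.flip⟩⟩, ⟨_, ⟨C⟩⟩]
  obtain ⟨m, hm, hq, -⟩ := card_of_θθ θ C.θθ Z.four_le
  exact ⟨F, inferInstance, inferInstance, inferInstance, m, hm, hq, hc, hD, hcyc, ⟨Z.hig h2⟩⟩

end Cfsg.Agent.Suz
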